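import Cfsg.Agent.H999.IF.EngB

/-!
# S5719: a subgroup of `C_T(σ)` acting freely on the points divides the number of fixed points of `σ`
-/

set_option autoImplicit false
set_option linter.unusedSectionVars false

namespace Cfsg.Agent.H111.IFA

open MulAction Subgroup Cfsg.Agent.H284 Cfsg.Agent.H209.Fxy

variable {T : Type*} [Group T] [Finite T] {A : Subgroup T} {Γ : Subgroup (MulAut T)}

theorem smul_mem_fixSet {σ : MulAut T} {b : T} (hb : σ b = b) {c : T ⧸ A} (hc : c ∈ fixSet A σ) :
    b • c ∈ fixSet A σ := by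
  obtain ⟨y, rfl, hy⟩ := hc
  refine ⟨b * y, rfl, ?_⟩
  rw [map_mul, hb]
  have : (b * y)⁻¹ * (b * σ y) = y⁻¹ * σ y := by group
  rwa [this]

/-- `B` acting freely on the fixed points of `σ` -/
theorem dvd_fx {σ : MulAut T} {B : Subgroup T} (hB : ∀ b ∈ B, σ b = b)
    (hfree : ∀ b ∈ B, b ≠ 1 → ∀ y : T, y⁻¹ * b * y ∉ A) : Nat.card B ∣ fx A σ := by
  let S : SubMulAction B (T ⧸ A) :=
    { carrier := fixSet A σ
      smul_mem' := fun b c hc => smul_mem_fixSet (hB b b.2) hc }
  have hst : ∀ c : S, MulAction.stabilizer B c = ⊥ := by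
    intro c
    rw [Subgroup.eq_bot_iff_forall]
    intro b hb
    by_contra hne
    have h1 : b • (c : T ⧸ A) = c := congrArg Subtype.val hb
    obtain ⟨c, hc⟩ := c
    induction c using QuotientGroup.induction_on with
    | H y =>
      have h2 : (((b : T) * y : T) : T ⧸ A) = (y : T ⧸ A) := h1
      rw [QuotientGroup.eq, ← A.inv_mem_iff] at h2
      refine hfree b b.2 (fun h => hne (Subtype.ext h)) y ?_
      have h3 : (((b : T) * y)⁻¹ * y)⁻¹ = y⁻¹ * b * y := by group
      rwa [h3] at h2
  have h1 : Nat.card S = Nat.card (Quotient (orbitRel B S)) * Nat.card B := by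
    rw [← Nat.card_prod]
    exact Nat.card_congr (selfEquivOrbitsQuotientProd hst)
  have h2 : fx A σ = Nat.card S := rfl
  rw [h2, h1]
  exact Dvd.intro_left _ rfl

end Cfsg.Agent.H111.IFA
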