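import Mathlib

/-!
# S5719, alternating groups: the numbers for `7 ≤ m ≤ 103`
-/

set_option autoImplicit false

namespace Cfsg.Agent.H111.IFA

/-- exponent of 2 in `(k-1)!`, `k ≤ 52` -/
def ww (k : ℕ) : ℕ := (k - 1) / 2 + (k - 1) / 4 + (k - 1) / 8 + (k - 1) / 16 + (k - 1) / 32

/-- the odd divisor -/
def qq (s : ℕ) : ℕ := (if 3 ≤ s then 3 else 1) * (if 5 ≤ s then 5 else 1) * (if 7 ≤ s then 7 else 1)

/-- the check -/
def chk (m k : ℕ) : Bool :=
  Nat.ble m.factorial ((2 ^ (k - 2 + ww k) * qq (m - 2 * k)) ^ 5 * (2 ^ k * k.factorial * (m - 2 * k).factorial))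

/-- the check for all `k` -/
def chkm (m : ℕ) : Bool := (List.range (m / 2 - 1)).all fun i => chk m (i + 2)

theorem chk_all : (List.range 97).all (fun i => chkm (i + 7)) = true := by decide +kernel

theorem dvd_all : (List.range 51).all (fun i => (i + 1).factorial % 2 ^ ww (i + 2) == 0) = true := by decide +kernel

theorem num {m k : ℕ} (h7 : 7 ≤ m) (hm : m ≤ 103) (hk : 2 ≤ k) (hkm : 2 * k ≤ m) :
    m.factorial ≤ (2 ^ (k - 2 + ww k) * qq (m - 2 * k)) ^ 5 * (2 ^ k * k.factorial * (m - 2 * k).factorial) := by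
  have h1 := List.all_eq_true.1 chk_all (m - 7) (List.mem_range.2 (by omega))
  rw [Nat.sub_add_cancel h7] at h1
  have h2 := List.all_eq_true.1 h1 (k - 2) (List.mem_range.2 (by omega))
  rw [Nat.sub_add_cancel hk] at h2
  exact Nat.le_of_ble_eq_true h2

theorem dvd_num {k : ℕ} (hk : 2 ≤ k) (hk' : k ≤ 52) : 2 ^ (k - 1 + ww k) ∣ 2 ^ (k - 1) * (k - 1).factorial := by
  have h1 := List.all_eq_true.1 dvd_all (k - 2) (List.mem_range.2 (by omega))
  rw [beq_iff_eq, show k - 2 + 1 = k - 1 by omega, Nat.sub_add_cancel hk] at h1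
  rw [pow_add]
  exact mul_dvd_mul (dvd_refl _) (Nat.dvd_of_mod_eq_zero h1)

end Cfsg.Agent.H111.IFA
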