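import Mathlib

/-!
# S5719, alternating groups: subgroups of the centralizer of an involution of `S_m`
-/

set_option autoImplicit false
set_option linter.unusedSectionVars false

namespace Cfsg.Agent.H111.IFA

open Equiv Equiv.Perm Subgroup

variable {α : Type*} [Fintype α] [DecidableEq α]

theorem cycleType_inv {t : Perm α} (h1 : t ≠ 1) (h2 : t * t = 1) :
    ∃ k, 0 < k ∧ t.cycleType = Multiset.replicate k 2 ∧ t.support.card = 2 * k := by
  have ho : orderOf t = 2 := orderOf_eq_prime (by rw [pow_two, h2]) h1
  obtain ⟨n, hn⟩ := cycleType_prime_order (by rw [ho]; exact Nat.prime_two)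
  rw [ho] at hn
  refine ⟨n + 1, Nat.succ_pos _, hn, ?_⟩
  rw [← sum_cycleType, hn, Multiset.sum_replicate, smul_eq_mul, mul_comm]

theorem card_centralizer {t : Perm α} {k : ℕ} (hk : t.cycleType = Multiset.replicate k 2) :
    Nat.card (centralizer {t}) = 2 ^ k * k.factorial * (Fintype.card α - 2 * k).factorial := by
  rw [nat_card_centralizer, hk, Multiset.sum_replicate, Multiset.prod_replicate, smul_eq_mul]
  rcases Nat.eq_zero_or_pos k with rfl | h0
  · simp
  · rw [Multiset.toFinset_replicate, if_neg h0.ne', Finset.prod_singleton, Multiset.count_replicate_self,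
      mul_comm k 2]
    ring

theorem cycleType_free {β : Type*} [Fintype β] [DecidableEq β] {t : Perm β} (h2 : t * t = 1)
    (hf : ∀ x, t x ≠ x) : ∃ k, t.cycleType = Multiset.replicate k 2 ∧ Fintype.card β = 2 * k := by
  have hs : t.support = Finset.univ := by
    ext x
    simp [hf x]
  by_cases h1 : t = 1
  · refine ⟨0, by rw [h1]; simp, ?_⟩
    rw [Nat.mul_zero, Fintype.card_eq_zero_iff]
    exact ⟨fun x => hf x (by rw [h1]; rfl)⟩
  · obtain ⟨k, -, h3, h4⟩ := cycleType_inv h1 h2
    exact ⟨k, h3, by rw [← h4, hs, Finset.card_univ]⟩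

/-- a 2-subgroup of the centralizer of the involution `t`, supported in the support of `t` minus one 2-cycle -/
theorem exists_two {t : Perm α} (h2 : t * t = 1) {p : α} (hp : t p ≠ p) {k : ℕ}
    (hk : t.support.card = 2 * k) {a : ℕ} (ha : 2 ^ a ∣ 2 ^ (k - 1) * (k - 1).factorial) :
    ∃ B : Subgroup (Perm α), Nat.card B = 2 ^ a ∧ (∀ b ∈ B, b * t = t * b) ∧
      ∀ b ∈ B, b.support ⊆ t.support.erase p := by
  classical
  have htt : ∀ x, t (t x) = x := fun x => by
    have := congrArg (fun g : Perm α => g x) h2
    simpa using this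
  let Q : α → Prop := fun x => t x ≠ x ∧ x ≠ p ∧ x ≠ t p
  have hQ : ∀ x, Q (t x) ↔ Q x := by
    intro x
    simp only [Q]
    constructor
    · rintro ⟨h3, h4, h5⟩
      refine ⟨fun h => h3 (by rw [h, h]), fun h => h5 (by rw [h]), fun h => h4 (by rw [h, htt])⟩
    · rintro ⟨h3, h4, h5⟩
      refine ⟨fun h => h3 (t.injective h), fun h => h5 (by rw [← h, htt]), fun h => h4 (t.injective h)⟩
  let t' : Perm {x // Q x} := t.subtypePerm hQ
  have ht'2 : t' * t' = 1 := by
    ext x
    simp [t', htt]
  have ht'f : ∀ x, t' x ≠ x := by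
    intro x hx
    exact x.2.1 (congrArg Subtype.val hx)
  obtain ⟨j, hj, hcard⟩ := cycleType_free ht'2 ht'f
  have hcQ : Fintype.card {x // Q x} = 2 * k - 2 := by
    rw [Fintype.card_subtype]
    have h3 : (Finset.univ.filter Q) = (t.support.erase p).erase (t p) := by
      ext x
      simp only [Q, Finset.mem_filter, Finset.mem_univ, true_and, Finset.mem_erase, mem_support]
      tauto
    rw [h3, Finset.card_erase_of_mem, Finset.card_erase_of_mem, hk]
    · omega
    · rwa [mem_support]
    · rw [Finset.mem_erase, mem_support]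
      exact ⟨hp, fun h => hp (t.injective h)⟩
  have hjk : j = k - 1 := by omega
  have hcc : Nat.card (centralizer {t'}) = 2 ^ (k - 1) * (k - 1).factorial := by
    rw [card_centralizer hj, hcard, Nat.sub_self, Nat.factorial_zero, mul_one, hjk]
  rw [← hcc] at ha
  have : Fact (Nat.Prime 2) := ⟨Nat.prime_two⟩
  obtain ⟨K, hK⟩ := Sylow.exists_subgroup_card_pow_prime (G := centralizer {t'}) 2 ha
  let φ : centralizer {t'} →* Perm α := (ofSubtype (p := Q)).comp (Subgroup.subtype _)
  have hφ : Function.Injective φ := (ofSubtype_injective).comp Subtype.val_injective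
  refine ⟨K.map φ, ?_, ?_, ?_⟩
  · rw [← hK]
    exact (Nat.card_congr (K.equivMapOfInjective φ hφ).toEquiv).symm
  · rintro _ ⟨⟨g, hg⟩, -, rfl⟩
    rw [mem_centralizer_singleton_iff] at hg
    ext x
    show ofSubtype g (t x) = t (ofSubtype g x)
    by_cases hx : Q x
    · have h3 : ofSubtype g x = ((g ⟨x, hx⟩ : {x // Q x}) : α) := ofSubtype_apply_of_mem g hx
      have h4 : ofSubtype g (t x) = ((g ⟨t x, (hQ x).2 hx⟩ : {x // Q x}) : α) := ofSubtype_apply_of_mem g _
      rw [h3, h4]
      have h5 := congrArg (fun u : Perm {x // Q x} => ((u ⟨x, hx⟩ : {x // Q x}) : α)) hg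
      exact h5
    · have h3 : ofSubtype g x = x := ofSubtype_apply_of_not_mem g hx
      have h4 : ofSubtype g (t x) = t x := ofSubtype_apply_of_not_mem g (fun h => hx ((hQ x).1 h))
      rw [h3, h4]
  · rintro _ ⟨⟨g, hg⟩, -, rfl⟩ x hx
    rw [mem_support] at hx
    have hx' : ofSubtype g x ≠ x := hx
    by_cases h3 : Q x
    · rw [Finset.mem_erase, mem_support]
      exact ⟨h3.2.1, h3.1⟩
    · exact absurd (ofSubtype_apply_of_not_mem g h3) hx'

/-- the even part of a subgroup -/
theorem card_dvd_two (H : Subgroup (Perm α)) :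
    Nat.card H ∣ 2 * Nat.card (H.subgroupOf (alternatingGroup α)) := by
  have h1 := ((alternatingGroup α).subgroupOf H).card_mul_index
  have h2 : ((alternatingGroup α).subgroupOf H).index ∣ 2 := by
    have h3 : (alternatingGroup α).relIndex H ∣ (alternatingGroup α).index := relIndex_dvd_index_of_normal _ _
    refine h3.trans ?_
    rcases subsingleton_or_nontrivial α with h4 | h4
    · rw [alternatingGroup.index_eq_one]
      exact one_dvd _
    · rw [alternatingGroup.index_eq_two]
  have h5 : Nat.card (H.subgroupOf (alternatingGroup α)) = Nat.card ((alternatingGroup α).subgroupOf H) := by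
    rw [Nat.card_congr (((H.subgroupOf (alternatingGroup α)).equivMapOfInjective _ (Subgroup.subtype_injective _)).toEquiv),
      Nat.card_congr ((((alternatingGroup α).subgroupOf H).equivMapOfInjective _ (Subgroup.subtype_injective _)).toEquiv),
      subgroupOf_map_subtype, subgroupOf_map_subtype, inf_comm]
  rw [h5, ← h1, mul_comm]
  exact mul_dvd_mul h2 (dvd_refl _)

/-- a cycle of length `p` outside of the support of `t` -/
theorem exists_cyc {t : Perm α} {p : ℕ} (hp : 2 ≤ p) (h : p + t.support.card ≤ Fintype.card α) :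
    ∃ c : Perm α, c.IsCycle ∧ c.support.card = p ∧ c * t = t * c := by
  have h1 : p ≤ (t.supportᶜ).card := by
    rw [Finset.card_compl]
    omega
  obtain ⟨U, hU, hUc⟩ := Finset.exists_subset_card_eq h1
  have hnd : U.toList.Nodup := U.nodup_toList
  have hlen : U.toList.length = p := by rw [Finset.length_toList, hUc]
  have hsup : (List.formPerm U.toList).support = U := by
    rw [List.support_formPerm_of_nodup _ hnd, Finset.toList_toFinset]
    intro x hx
    rw [hx] at hlen
    simp at hlen
    omega
  refine ⟨List.formPerm U.toList, List.isCycle_formPerm hnd (by omega), by rw [hsup, hUc], ?_⟩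
  apply Equiv.Perm.Disjoint.commute
  rw [disjoint_iff_disjoint_support, hsup]
  exact (Finset.disjoint_left.2 fun x hx hx' => (Finset.mem_compl.1 (hU hx)) hx')

end Cfsg.Agent.H111.IFA
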