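import Cfsg.Agent.H111.IFA.Dvd
import Cfsg.Agent.H111.IFA.Perm
import Cfsg.Agent.H111.IFA.Num
import Cfsg.Agent.H482.IF.Tail
import Cfsg.Agent.S0713

/-!
# S5719, alternating groups: the primitive case

`t` is an involution of `P` with a minimal number `k` of transpositions, `s = m - 2k`. Subgroups `B` of `C_T(t)` acting freely on
the points `T/A` have an order dividing `fx A t` : a 2-group supported in `supp t` minus one 2-cycle (all its involutions have fewer
transpositions), and a `p`-cycle outside of `supp t` (Jordan). So `fx` is too big.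
-/

set_option autoImplicit false
set_option linter.unusedSectionVars false

namespace Cfsg.Agent.H111.IFA

open MulAction Subgroup Cfsg.Agent.H284 Cfsg.Agent.H209.Fxy Equiv Equiv.Perm

variable {m : ℕ} {A : Subgroup (alternatingGroup (Fin m))} {Γ : Subgroup (MulAut (alternatingGroup (Fin m)))}

/-- the automorphism of `A_m` given by `t` -/
abbrev cn (t : Perm (Fin m)) : MulAut (alternatingGroup (Fin m)) := MulAut.conjNormal t

theorem cn_fix {t : Perm (Fin m)} {b : alternatingGroup (Fin m)} (hb : (b : Perm (Fin m)) * t = t * b) :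
    cn t b = b := by
  apply Subtype.ext
  rw [MulAut.conjNormal_apply, ← hb, mul_inv_cancel_right]

theorem card_supp_conj (y g : Perm (Fin m)) : (y⁻¹ * g * y).support.card = g.support.card := by
  have := card_support_conj (σ := y⁻¹) (τ := g)
  rwa [inv_inv] at this

/-- the 2-part -/
theorem two_dvd {P : Subgroup (Perm (Fin m))} (hA : ∀ a ∈ A, (a : Perm (Fin m)) ∈ P) {t : Perm (Fin m)}
    (ht1 : t ≠ 1) (ht2 : t * t = 1)
    (hmin : ∀ g ∈ P, g ≠ 1 → g * g = 1 → t.support.card ≤ g.support.card) {k : ℕ}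
    (hk : t.support.card = 2 * k) {a : ℕ} (ha : 2 ^ a ∣ 2 ^ (k - 1) * (k - 1).factorial) :
    2 ^ a ∣ 2 * fx A (cn t) := by
  obtain ⟨p, hp⟩ : ∃ p, t p ≠ p := by
    by_contra hc
    push Not at hc
    exact ht1 (Equiv.ext hc)
  obtain ⟨B, hBc, hBt, hBs⟩ := exists_two ht2 hp hk ha
  have h1 : 2 ^ a ∣ 2 * Nat.card (B.subgroupOf (alternatingGroup (Fin m))) := by
    rw [← hBc]
    exact card_dvd_two B
  refine h1.trans (mul_dvd_mul (dvd_refl _) (dvd_fx ?_ ?_))
  · intro b hb
    exact cn_fix (hBt b hb)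
  · intro b hb hb1 y hy
    have hb' : (b : Perm (Fin m)) ∈ B := hb
    -- the order of `b` is a power of 2
    have h2 : orderOf (⟨b, hb'⟩ : B) ∣ 2 ^ a := by
      rw [← hBc]
      exact orderOf_dvd_natCard _
    obtain ⟨i, -, hi⟩ := (Nat.dvd_prime_pow Nat.prime_two).1 h2
    have ho : orderOf (b : Perm (Fin m)) = 2 ^ i := by
      rw [← hi]
      exact (Subgroup.orderOf_mk _ _).symm
    have hi0 : i ≠ 0 := by
      rintro rfl
      rw [pow_zero, orderOf_eq_one_iff] at ho
      exact hb1 (Subtype.ext ho)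
    obtain ⟨j, rfl⟩ := Nat.exists_eq_succ_of_ne_zero hi0
    set c : Perm (Fin m) := (b : Perm (Fin m)) ^ (2 ^ j) with hc
    have hc2 : c * c = 1 := by
      rw [hc, ← pow_add, ← two_mul, ← pow_succ']
      have := pow_orderOf_eq_one (b : Perm (Fin m))
      rwa [ho] at this
    have hc1 : c ≠ 1 := by
      intro h3
      have h4 := orderOf_dvd_of_pow_eq_one h3
      rw [ho] at h4
      have h5 := Nat.le_of_dvd (pow_pos (by norm_num) j) h4
      have h6 : 2 ^ j < 2 ^ (j + 1) := Nat.pow_lt_pow_right (by norm_num) (Nat.lt_succ_self j)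
      exact absurd h5 (by simpa using h6)
    have hcB : c ∈ B := B.pow_mem hb' _
    have h3 : ((y⁻¹ * b * y : alternatingGroup (Fin m)) : Perm (Fin m)) ∈ P := hA _ hy
    have h4 : (y : Perm (Fin m))⁻¹ * c * y ∈ P := by
      have h5 := P.pow_mem h3 (2 ^ j)
      have h6 : ((y⁻¹ * b * y : alternatingGroup (Fin m)) : Perm (Fin m)) ^ (2 ^ j) = (y : Perm (Fin m))⁻¹ * c * y := by
        have h7 := conj_pow (i := 2 ^ j) (a := (y : Perm (Fin m))⁻¹) (b := (b : Perm (Fin m)))
        rw [inv_inv] at h7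
        rw [hc, ← h7]
        rfl
      rwa [h6] at h5
    have h5 : (y : Perm (Fin m))⁻¹ * c * y ≠ 1 := by
      intro h6
      apply hc1
      have h7 : c = y * ((y : Perm (Fin m))⁻¹ * c * y) * (y : Perm (Fin m))⁻¹ := by group
      rw [h7, h6, mul_one, mul_inv_cancel]
    have h6 : (y : Perm (Fin m))⁻¹ * c * y * ((y : Perm (Fin m))⁻¹ * c * y) = 1 := by
      have h7 : (y : Perm (Fin m))⁻¹ * c * y * ((y : Perm (Fin m))⁻¹ * c * y) = (y : Perm (Fin m))⁻¹ * (c * c) * y := by
        group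
      rw [h7, hc2, mul_one, inv_mul_cancel]
    have h7 := hmin _ h4 h5 h6
    rw [card_supp_conj] at h7
    have h8 := Finset.card_le_card (hBs c hcB)
    have h9 : (t.support.erase p).card < t.support.card :=
      Finset.card_lt_card (Finset.erase_ssubset (by rwa [mem_support]))
    omega

/-- the odd part -/
theorem odd_dvd {P : Subgroup (Perm (Fin m))} (hA : ∀ a ∈ A, (a : Perm (Fin m)) ∈ P)
    (hprim : MulAction.IsPreprimitive P (Fin m)) (hnP : ¬ alternatingGroup (Fin m) ≤ P) {t : Perm (Fin m)}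
    {p : ℕ} (hp : p.Prime) (hp2 : p ≠ 2) (h5 : 5 ≤ m) (hpm : p + 3 ≤ m) (hpt : p + t.support.card ≤ m) :
    p ∣ fx A (cn t) := by
  obtain ⟨c, hcc, hcs, hct⟩ := exists_cyc (t := t) hp.two_le (by rwa [Fintype.card_fin])
  have hceven : c ∈ alternatingGroup (Fin m) := by
    rw [mem_alternatingGroup, hcc.sign, hcs, (hp.odd_of_ne_two hp2).neg_one_pow, neg_neg]
  have hco : orderOf (⟨c, hceven⟩ : alternatingGroup (Fin m)) = p := by
    rw [Subgroup.orderOf_mk, hcc.orderOf, hcs]
  have h1 : p = Nat.card (zpowers (⟨c, hceven⟩ : alternatingGroup (Fin m))) := by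
    rw [Nat.card_zpowers, hco]
  rw [h1]
  apply dvd_fx
  · rintro _ ⟨i, rfl⟩
    apply cn_fix
    have : Commute c t := hct
    show ((((⟨c, hceven⟩ : alternatingGroup (Fin m)) ^ i : alternatingGroup (Fin m)) : Perm (Fin m))) * t = _
    rw [Subgroup.coe_zpow]
    exact (this.zpow_left i).eq
  · intro b hb hb1 y hy
    -- `b` generates
    have h2 : (⟨c, hceven⟩ : alternatingGroup (Fin m)) ∈ zpowers b := by
      have h3 : zpowers b = zpowers (⟨c, hceven⟩ : alternatingGroup (Fin m)) := by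
        apply Subgroup.eq_of_le_of_card_ge
        · rwa [zpowers_le]
        · rw [← h1, Nat.card_zpowers]
          obtain ⟨i, rfl⟩ := hb
          have h4 : orderOf ((⟨c, hceven⟩ : alternatingGroup (Fin m)) ^ i) ∣ p := by
            rw [← hco]
            exact orderOf_dvd_of_pow_eq_one (by rw [← zpow_natCast, ← zpow_mul, mul_comm, zpow_mul, zpow_natCast,
              pow_orderOf_eq_one, one_zpow])
          rcases (Nat.dvd_prime hp).1 h4 with h5 | h5
          · exact absurd (orderOf_eq_one_iff.1 h5) hb1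
          · exact h5.ge
      rw [h3]
      exact mem_zpowers _
    obtain ⟨j, hj⟩ := h2
    have h3 : y⁻¹ * (⟨c, hceven⟩ : alternatingGroup (Fin m)) * y ∈ A := by
      have h4 := A.zpow_mem hy j
      have h5 : (y⁻¹ * b * y) ^ j = y⁻¹ * b ^ j * y := by
        have h6 := conj_zpow (i := j) (a := y⁻¹) (b := b)
        rwa [inv_inv] at h6
      rw [h5] at h4
      have h6 : b ^ j = (⟨c, hceven⟩ : alternatingGroup (Fin m)) := hj
      rwa [h6] at h4
    have h4 : (y : Perm (Fin m))⁻¹ * c * y ∈ P := hA _ h3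
    apply hnP
    refine Cfsg.Agent.S0713.result P hprim hp (by rwa [Fintype.card_fin]) (by rwa [Fintype.card_fin])
      (g := (y : Perm (Fin m))⁻¹ * c * y) ?_ ?_ h4
    · have h5 := hcc.conj (g := (y : Perm (Fin m))⁻¹)
      rwa [inv_inv] at h5
    · rw [card_supp_conj, hcs]

theorem eq_one_of_cn {g : Perm (Fin m)} (h4 : 4 ≤ m) (h1 : cn g = 1) : g = 1 := by
  by_contra hg1
  have h3 : ∀ x : alternatingGroup (Fin m), g * x * g⁻¹ = x := by
    intro x
    have := congrArg (fun σ : MulAut (alternatingGroup (Fin m)) => ((σ x : alternatingGroup (Fin m)) : Perm (Fin m))) h1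
    simpa [MulAut.conjNormal_apply] using this
  obtain ⟨a, ha⟩ : ∃ a, g a ≠ a := by
    by_contra hc
    push Not at hc
    exact hg1 (Equiv.ext hc)
  obtain ⟨b, hb⟩ : ∃ b : Fin m, b ∉ ({a, g a} : Finset (Fin m)) := by
    by_contra hc
    push Not at hc
    have h4 : (Finset.univ : Finset (Fin m)) ⊆ {a, g a} := fun x _ => hc x
    have h5 := Finset.card_le_card h4
    rw [Finset.card_univ, Fintype.card_fin] at h5
    have h6 := Finset.card_le_two (a := a) (b := g a)
    omega
  obtain ⟨c, hc⟩ : ∃ c : Fin m, c ∉ ({a, g a, b} : Finset (Fin m)) := by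
    by_contra hc
    push Not at hc
    have h4 : (Finset.univ : Finset (Fin m)) ⊆ {a, g a, b} := fun x _ => hc x
    have h5 := Finset.card_le_card h4
    rw [Finset.card_univ, Fintype.card_fin] at h5
    have h6 := Finset.card_le_three (a := a) (b := g a) (c := b)
    omega
  simp only [Finset.mem_insert, Finset.mem_singleton, not_or] at hb hc
  have h3c : (Equiv.swap (g a) b * Equiv.swap (g a) c).IsThreeCycle :=
    Equiv.Perm.isThreeCycle_swap_mul_swap_same (Ne.symm hb.2) (Ne.symm hc.2.1) (Ne.symm hc.2.2)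
  have h7 := h3 ⟨_, h3c.mem_alternatingGroup⟩
  have h8 : g * (Equiv.swap (g a) b * Equiv.swap (g a) c) = (Equiv.swap (g a) b * Equiv.swap (g a) c) * g := by
    have := congrArg (· * g) h7
    simpa [mul_assoc] using this
  have h9 := congrArg (fun σ : Equiv.Perm (Fin m) => σ a) h8
  simp only [Equiv.Perm.coe_mul, Function.comp_apply] at h9
  rw [Equiv.swap_apply_of_ne_of_ne (Ne.symm ha) (Ne.symm hc.1), Equiv.swap_apply_of_ne_of_ne (Ne.symm ha) (Ne.symm hb.1),
    Equiv.swap_apply_left, Equiv.swap_apply_of_ne_of_ne hc.2.1 hc.2.2] at h9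
  exact hc.2.1 h9.symm

/-- **S5719, `A_m`, primitive case** (`|A|` odd included). -/
theorem prim_false (hm : 7 ≤ m) (h : IF A Γ) (P : Subgroup (Perm (Fin m)))
    (hP : ∀ σ ∈ Γ, ∃ g ∈ P, σ = MulAut.conjNormal g) (hP' : ∀ g ∈ P, MulAut.conjNormal g ∈ Γ)
    (hA : ∀ a ∈ A, (a : Perm (Fin m)) ∈ P) (hprim : MulAction.IsPreprimitive P (Fin m)) : False := by
  have hnP : ¬ alternatingGroup (Fin m) ≤ P := by
    intro hle
    apply h.ne_top
    rw [Subgroup.eq_top_iff']
    intro a
    rw [← h.conj]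
    have h1 := hP' a (hle a.2)
    rwa [MulAut.conjNormal_val] at h1
  -- an involution of `P`
  have hne : {g : Perm (Fin m) | g ∈ P ∧ g ≠ 1 ∧ g * g = 1}.Nonempty := by
    obtain ⟨σ, hσ, hσ2, -⟩ := h.ex
    obtain ⟨g, hg, rfl⟩ := hP σ hσ
    refine ⟨g, hg, ?_, ?_⟩
    · rintro rfl
      rw [map_one, orderOf_one] at hσ2
      omega
    · apply eq_one_of_cn (by omega)
      show MulAut.conjNormal (g * g) = 1
      rw [map_mul, ← pow_two, ← hσ2, pow_orderOf_eq_one]
  obtain ⟨t, ⟨htP, ht1, ht2⟩, hmin'⟩ := Set.exists_min_image _ (fun g : Perm (Fin m) => g.support.card)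
    (Set.toFinite _) hne
  have hmin : ∀ g ∈ P, g ≠ 1 → g * g = 1 → t.support.card ≤ g.support.card := fun g h1 h2 h3 =>
    hmin' g ⟨h1, h2, h3⟩
  have hto : orderOf t = 2 := orderOf_eq_prime (by rw [pow_two, ht2]) ht1
  rcases Nat.lt_or_ge 103 m with h104 | h103
  · exact Cfsg.Agent.H482.IF.tail_false h104 h P hprim hnP hA t hto (hP' t htP)
  have hcn : orderOf (cn t) = 2 := by
    apply orderOf_eq_prime
    · show MulAut.conjNormal t ^ 2 = 1
      rw [← map_pow, pow_two, ht2, map_one]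
    · intro h1
      exact ht1 (eq_one_of_cn (by omega) h1)
  obtain ⟨k, hk1, hkm, hks, -, hkc⟩ := Cfsg.Agent.H482.IF.card_conj t hto
  have hE := (Cfsg.Agent.H999.IFB.IF.E2 h (hP' t htP) hcn).1
  have hE' := lt_of_lt_of_le hE (Cfsg.Agent.H482.IF.icl_le t)
  -- `k ≥ 2`
  have hk2 : 2 ≤ k := by
    by_contra hcon
    have hk : k = 1 := by omega
    rw [hk, mul_one, card_support_eq_two] at hks
    apply hnP
    rw [subgroup_eq_top_of_isPreprimitive_of_isSwap_mem hprim t hks htP]
    exact le_top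
  have hf0 : 0 < fx A (cn t) := Cfsg.Agent.H999.IFB.fx_pos A _
  have hd2 : 2 ^ (k - 2 + ww k) ∣ fx A (cn t) := by
    have h1 := two_dvd hA ht1 ht2 hmin hks (dvd_num hk2 (by omega))
    have h2 : k - 1 + ww k = (k - 2 + ww k) + 1 := by omega
    rw [h2, pow_succ', mul_dvd_mul_iff_left (by norm_num)] at h1
    exact h1
  have hdp : ∀ p : ℕ, p.Prime → p ≠ 2 → (if p ≤ m - 2 * k then p else 1) ∣ fx A (cn t) := by
    intro p hp hp2
    split_ifs with h1
    · exact odd_dvd hA hprim hnP hp hp2 (by omega) (by omega) (by omega)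
    · exact one_dvd _
  have hdq : 2 ^ (k - 2 + ww k) * qq (m - 2 * k) ∣ fx A (cn t) := by
    refine Nat.Coprime.mul_dvd_of_dvd_of_dvd ?_ hd2 ?_
    · apply Nat.Coprime.pow_left
      unfold qq
      split_ifs <;> norm_num
    · refine Nat.Coprime.mul_dvd_of_dvd_of_dvd ?_ (Nat.Coprime.mul_dvd_of_dvd_of_dvd ?_
        (hdp 3 (by norm_num) (by norm_num)) (hdp 5 (by norm_num) (by norm_num))) (hdp 7 (by norm_num) (by norm_num))
      · split_ifs <;> norm_num
      · split_ifs <;> norm_num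
  have hle := Nat.le_of_dvd hf0 hdq
  have h1 := num hm h103 hk2 hkm
  have hKpos : 0 < 2 ^ k * k.factorial * (m - 2 * k).factorial := by positivity
  have h2 : fx A (cn t) ^ 5 * (2 ^ k * k.factorial * (m - 2 * k).factorial) < m.factorial := by
    rw [← hkc]
    exact Nat.mul_lt_mul_of_pos_right hE' hKpos
  have h3 := Nat.mul_le_mul_right (2 ^ k * k.factorial * (m - 2 * k).factorial) (Nat.pow_le_pow_left hle 5)
  omega

end Cfsg.Agent.H111.IFA
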